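import Mathlib
import Cfsg.Agent.StandardComponent.AltAut

/-!
# Subgroups of index `n` in `S_n`
-/

set_option autoImplicit false

namespace Cfsg.Agent.H941.SymIndex

open Equiv MulAction
open scoped Pointwise

section
variable {Ω : Type*} [Fintype Ω]

/-- A subgroup of `Perm Ω` of index `card Ω` with a fixed point is a point stabilizer. -/
theorem eq_stabilizer (H : Subgroup (Perm Ω)) (hH : H.index = Fintype.card Ω) (y : Ω)
    (hy : ∀ h ∈ H, h y = y) : H = stabilizer (Perm Ω) y := by
  have hle : H ≤ stabilizer (Perm Ω) y := fun h hh => by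
    rw [mem_stabilizer_iff]; exact hy h hh
  have h1 : (stabilizer (Perm Ω) y).index = Fintype.card Ω := by
    rw [index_stabilizer_of_transitive, Nat.card_eq_fintype_card]
  have h2 := Subgroup.relIndex_mul_index hle
  rw [h1, hH] at h2
  have hpos : 0 < Fintype.card Ω := Fintype.card_pos_iff.2 ⟨y⟩
  have h3 : H.relIndex (stabilizer (Perm Ω) y) = 1 := by
    exact Nat.eq_of_mul_eq_mul_right hpos (by rw [h2, one_mul])
  exact le_antisymm hle (Subgroup.relIndex_eq_one.1 h3)

end

variable {Ω : Type*} [Fintype Ω] [DecidableEq Ω]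

theorem choose_dvd (H : Subgroup (Perm Ω)) (s : Finset Ω) (hs : ∀ h ∈ H, h • s = s) :
    (Fintype.card Ω).choose s.card ∣ H.index := by
  have hle : H ≤ stabilizer (Perm Ω) s := fun h hh => by
    rw [mem_stabilizer_iff]; exact hs h hh
  let t : Set.powersetCard Ω s.card := ⟨s, rfl⟩
  have h1 : (stabilizer (Perm Ω) t).index = Nat.card (Set.powersetCard Ω s.card) := by
    have : IsPretransitive (Perm Ω) (Set.powersetCard Ω s.card) := Set.powersetCard.isPretransitive
    exact index_stabilizer_of_transitive _ _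
  have h2 : stabilizer (Perm Ω) t = stabilizer (Perm Ω) s := by
    ext g
    rw [mem_stabilizer_iff, mem_stabilizer_iff, ← Subtype.coe_inj, Set.powersetCard.coe_smul]
  have h3 := Subgroup.index_dvd_of_le hle
  rw [← h2, h1, Set.powersetCard.card, Nat.card_eq_fintype_card] at h3
  exact h3

/-- small degrees -/
theorem small (h5 : Fintype.card Ω ≤ 5) (H : Subgroup (Perm Ω)) (hH : H.index = Fintype.card Ω) :
    ∃ x : Ω, H = stabilizer (Perm Ω) x := by
  classical
  have h0 : Fintype.card Ω ≠ 0 := by
    rw [← hH]; exact Subgroup.index_ne_zero_of_finite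
  have hne : Nonempty Ω := Fintype.card_pos_iff.1 (Nat.pos_of_ne_zero h0)
  obtain ⟨x⟩ := hne
  suffices ∃ y, ∀ h ∈ H, h y = y by
    obtain ⟨y, hy⟩ := this
    exact ⟨y, eq_stabilizer H hH y hy⟩
  -- the orbit
  let s : Finset Ω := Finset.univ.filter fun z => ∃ h ∈ H, h x = z
  have hs : ∀ h ∈ H, h • s = s := by
    intro h hh
    ext z
    rw [Finset.mem_smul_finset]
    constructor
    · rintro ⟨w, hw, rfl⟩
      obtain ⟨k, hk, hkw⟩ := (Finset.mem_filter.1 hw).2
      refine Finset.mem_filter.2 ⟨Finset.mem_univ _, h * k, H.mul_mem hh hk, ?_⟩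
      rw [Perm.mul_apply, hkw]; rfl
    · intro hz
      obtain ⟨k, hk, hkz⟩ := (Finset.mem_filter.1 hz).2
      refine ⟨h⁻¹ z, Finset.mem_filter.2 ⟨Finset.mem_univ _, h⁻¹ * k, H.mul_mem (H.inv_mem hh) hk, ?_⟩, ?_⟩
      · rw [Perm.mul_apply, hkz]
      · simp
  have hxs : x ∈ s := Finset.mem_filter.2 ⟨Finset.mem_univ _, 1, H.one_mem, rfl⟩
  have hd := choose_dvd H s hs
  rw [hH] at hd
  have hle : s.card ≤ Fintype.card Ω := Finset.card_le_univ s
  have hpos : 0 < s.card := Finset.card_pos.2 ⟨x, hxs⟩
  -- order of `H`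
  have hcard : Fintype.card Ω * Nat.card H = (Fintype.card Ω).factorial := by
    rw [← hH, Subgroup.index_mul_card, Nat.card_perm, Nat.card_eq_fintype_card, hH]
  have hcase : s.card = 1 ∨ s.card + 1 = Fintype.card Ω ∨ s.card = Fintype.card Ω := by
    generalize s.card = k at hd hle hpos
    generalize Fintype.card Ω = n at *
    interval_cases n <;> interval_cases k <;> revert hd <;> decide
  rcases hcase with h | h | h
  · obtain ⟨y, hy⟩ := Finset.card_eq_one.1 h
    refine ⟨y, fun g hg => ?_⟩
    have h1 := hs g hg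
    rw [hy, Finset.smul_finset_singleton] at h1
    exact Finset.singleton_inj.1 h1
  · have hc : sᶜ.card = 1 := by rw [Finset.card_compl]; omega
    obtain ⟨y, hy⟩ := Finset.card_eq_one.1 hc
    refine ⟨y, fun g hg => ?_⟩
    by_contra hne
    have hyc : y ∉ s := by
      rw [← Finset.mem_compl, hy]; exact Finset.mem_singleton_self y
    have hgy : g y ∈ s := by
      by_contra hgy
      rw [← Finset.mem_compl, hy, Finset.mem_singleton] at hgy
      exact hne hgy
    rw [← hs g hg, Finset.mem_smul_finset] at hgy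
    obtain ⟨w, hw, hwy⟩ := hgy
    have : w = y := g.injective hwy
    exact hyc (this ▸ hw)
  · -- transitive
    have huniv : s = Finset.univ := Finset.eq_univ_of_card s h
    have htr : IsPretransitive H Ω := by
      refine (isPretransitive_iff_base x).2 fun z => ?_
      have hz : z ∈ s := by rw [huniv]; exact Finset.mem_univ z
      obtain ⟨k, hk, hkz⟩ := (Finset.mem_filter.1 hz).2
      exact ⟨⟨k, hk⟩, hkz⟩
    have hdvd : Fintype.card Ω ∣ Nat.card H := by
      rw [← Nat.card_eq_fintype_card, ← index_stabilizer_of_transitive H x]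
      exact Subgroup.index_dvd_card _
    have h1 : Fintype.card Ω = 1 := by
      obtain ⟨c, hc⟩ := hdvd
      rw [hc] at hcard
      generalize Fintype.card Ω = n at *
      interval_cases n
      · exact absurd rfl h0
      · rfl
      all_goals (simp [Nat.factorial] at hcard; try omega)
    obtain ⟨y, hy⟩ := Fintype.card_eq_one_iff.1 h1
    exact ⟨y, fun g _ => (hy (g y))⟩

end Cfsg.Agent.H941.SymIndex
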