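import Mathlib
import Cfsg.Agent.H941.SymIndex

/-!
# Subgroups of index `n` in `S_n`, `n ≥ 7`
-/

set_option autoImplicit false

namespace Cfsg.Agent.H941.SymIndex

open Equiv MulAction

theorem large {n : ℕ} (hn : 7 ≤ n) (H : Subgroup (Perm (Fin n))) (hH : H.index = n) :
    ∃ x : Fin n, H = stabilizer (Perm (Fin n)) x := by
  classical
  have : Nontrivial (Fin n) := Fin.nontrivial_iff_two_le.mpr (by omega)
  have hsimple : IsSimpleGroup (alternatingGroup (Fin n)) := by
    apply alternatingGroup.isSimpleGroup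
    rw [Nat.card_eq_fintype_card, Fintype.card_fin]; omega
  suffices ∃ y, ∀ h ∈ H, h y = y by
    obtain ⟨y, hy⟩ := this
    exact ⟨y, eq_stabilizer H (by rw [hH, Fintype.card_fin]) y hy⟩
  let K : Subgroup (alternatingGroup (Fin n)) := H.subgroupOf (alternatingGroup (Fin n))
  have hKle : K.index ≤ n := by
    refine le_trans ?_ hH.le
    rw [← Subgroup.relIndex_top_right H]
    exact Subgroup.relIndex_le_of_le_right le_top
      (by rw [Subgroup.relIndex_top_right]; exact Subgroup.index_ne_zero_of_finite)
  have hK : K ≠ ⊤ := by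
    intro h
    have hle' : alternatingGroup (Fin n) ≤ H := Subgroup.subgroupOf_eq_top.1 h
    have hi := Subgroup.relIndex_mul_index hle'
    rw [alternatingGroup.index_eq_two] at hi
    have hd : H.index ∣ 2 := ⟨_, by rw [mul_comm]; exact hi.symm⟩
    have := Nat.le_of_dvd (by norm_num) hd
    omega
  let φ : alternatingGroup (Fin n) →* Perm (alternatingGroup (Fin n) ⧸ K) := MulAction.toPermHom _ _
  have hφ : φ.ker = ⊥ := by
    rcases IsSimpleGroup.eq_bot_or_eq_top_of_normal φ.ker inferInstance with h | h
    · exact h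
    · exfalso
      apply hK
      rw [eq_top_iff]
      have h2 : φ.ker = K.normalCore := (Subgroup.normalCore_eq_ker K).symm
      rw [← h, h2]
      exact K.normalCore_le
  have hinj : Function.Injective φ := (MonoidHom.ker_eq_bot_iff _).mp hφ
  have hcard2 : 2 * Nat.card (alternatingGroup (Fin n)) = n.factorial := by
    rw [two_mul_nat_card_alternatingGroup, Nat.card_perm, Nat.card_eq_fintype_card, Fintype.card_fin]
  have hidx : K.index = n := by
    apply le_antisymm hKle
    by_contra hlt
    push Not at hlt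
    have h1 := Nat.card_le_card_of_injective _ hinj
    rw [Nat.card_perm, ← Subgroup.index_eq_card] at h1
    have h2 : K.index.factorial ≤ (n - 1).factorial := Nat.factorial_le (by omega)
    have h3 : n * (n - 1).factorial = n.factorial := Nat.mul_factorial_pred (by omega)
    have h4 := Nat.factorial_pos (n - 1)
    nlinarith
  have hcq : Nat.card (alternatingGroup (Fin n) ⧸ K) = n := by rw [← Subgroup.index_eq_card, hidx]
  let e : (alternatingGroup (Fin n) ⧸ K) ≃ Fin n := (Finite.equivFinOfCardEq hcq)
  let ψ : alternatingGroup (Fin n) →* Perm (Fin n) :=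
    (e.permCongrHom : Perm (alternatingGroup (Fin n) ⧸ K) ≃* Perm (Fin n)).toMonoidHom.comp φ
  have hψinj : Function.Injective ψ := by
    intro a b hab
    exact hinj (e.permCongrHom.injective hab)
  have hψr : ψ.range = alternatingGroup (Fin n) := by
    apply Equiv.Perm.eq_alternatingGroup_of_index_eq_two
    have h1 : Nat.card ψ.range = Nat.card (alternatingGroup (Fin n)) :=
      (Nat.card_congr (MonoidHom.ofInjective hψinj).toEquiv).symm
    have h2 := Subgroup.index_mul_card ψ.range
    rw [h1, Nat.card_perm, Nat.card_fin, ← hcard2] at h2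
    exact Nat.eq_of_mul_eq_mul_right Nat.card_pos h2
  let α : MulAut (alternatingGroup (Fin n)) :=
    (MonoidHom.ofInjective hψinj).trans (MulEquiv.subgroupCongr hψr)
  have hα : ∀ x, ((α x : alternatingGroup (Fin n)) : Perm (Fin n)) = ψ x := fun x => rfl
  obtain ⟨f, hf⟩ := Cfsg.Agent.StandardComponent.AltAut.exists_autHom n hn
  set π := f α with hπ
  let y0 : Fin n := e ((1 : alternatingGroup (Fin n)) : alternatingGroup (Fin n) ⧸ K)
  obtain ⟨y, hy⟩ := π.surjective y0
  have hpi : π⁻¹ y0 = y := by rw [Perm.inv_eq_iff_eq]; exact hy.symm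
  have hmem : ∀ x : alternatingGroup (Fin n), x ∈ K ↔ (x : Perm (Fin n)) y = y := by
    intro x
    have h1 : x ∈ K ↔ ψ x y0 = y0 := by
      have h2 : ψ x y0 = e ((x : alternatingGroup (Fin n)) : alternatingGroup (Fin n) ⧸ K) := by
        change e (φ x (e.symm (e _))) = _
        rw [e.symm_apply_apply]
        change e ((x * 1 : alternatingGroup (Fin n)) : alternatingGroup (Fin n) ⧸ K) = _
        rw [mul_one]
      rw [h2, e.apply_eq_iff_eq]
      rw [eq_comm, QuotientGroup.eq, inv_one, one_mul]
    rw [h1, ← hα, hf, Perm.mul_apply, Perm.mul_apply, hpi]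
    constructor
    · intro h
      exact π.injective (h.trans hy.symm)
    · intro h
      rw [h]
      exact hy
  refine ⟨y, ?_⟩
  intro h hh
  by_contra hne
  set z := h⁻¹ y with hz
  have hzy : z ≠ y := by
    intro hzy
    apply hne
    rw [hz, Perm.inv_eq_iff_eq] at hzy
    exact hzy.symm
  obtain ⟨a, ha⟩ : ∃ a, a ∉ ({y, z} : Finset (Fin n)) := by
    by_contra hcon
    push Not at hcon
    have h1 : (Finset.univ : Finset (Fin n)) ⊆ {y, z} := fun a _ => hcon a
    have h2 := Finset.card_le_card h1
    rw [Finset.card_univ, Fintype.card_fin] at h2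
    have h3 := Finset.card_le_two (a := y) (b := z)
    omega
  obtain ⟨b, hb⟩ : ∃ b, b ∉ ({y, z, a} : Finset (Fin n)) := by
    by_contra hcon
    push Not at hcon
    have h1 : (Finset.univ : Finset (Fin n)) ⊆ {y, z, a} := fun a _ => hcon a
    have h2 := Finset.card_le_card h1
    rw [Finset.card_univ, Fintype.card_fin] at h2
    have h3 := Finset.card_le_three (a := y) (b := z) (c := a)
    omega
  simp only [Finset.mem_insert, Finset.mem_singleton, not_or] at ha hb
  have hxA : swap z a * swap z b ∈ alternatingGroup (Fin n) := by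
    rw [Perm.mem_alternatingGroup, Perm.sign_mul, Perm.sign_swap (Ne.symm ha.2),
      Perm.sign_swap (Ne.symm hb.2.1)]
    rfl
  have hxK : (⟨swap z a * swap z b, hxA⟩ : alternatingGroup (Fin n)) ∈ K := by
    rw [hmem]
    change (swap z a * swap z b) y = y
    rw [Perm.mul_apply, swap_apply_of_ne_of_ne (Ne.symm hzy) (Ne.symm hb.1),
      swap_apply_of_ne_of_ne (Ne.symm hzy) (Ne.symm ha.1)]
  have hxH : swap z a * swap z b ∈ H := hxK
  have h1 : h * (swap z a * swap z b) * h⁻¹ ∈ H := H.mul_mem (H.mul_mem hh hxH) (H.inv_mem hh)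
  have h2 : h * (swap z a * swap z b) * h⁻¹ ∈ alternatingGroup (Fin n) :=
    (inferInstance : (alternatingGroup (Fin n)).Normal).conj_mem _ hxA _
  have h3 : (⟨_, h2⟩ : alternatingGroup (Fin n)) ∈ K := h1
  rw [hmem] at h3
  change (h * (swap z a * swap z b) * h⁻¹) y = y at h3
  rw [Perm.mul_apply, ← hz, Perm.mul_apply, Perm.mul_apply, swap_apply_left,
    swap_apply_of_ne_of_ne hb.2.1 hb.2.2] at h3
  have h4 : b = z := by
    rw [hz, ← h3]; simp
  exact hb.2.1 h4

end Cfsg.Agent.H941.SymIndex
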